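import Cfsg.Agent.H763.U33.Dat

/-!
# The frame of `X = Fi22:2` acting on 3510 transpositions (helper763, S5525)

`frame_of` : the `Frame` from the rules of the three letters `tau, w4, w5` (the inverse letters follow).
-/

set_option autoImplicit false
set_option maxRecDepth 100000
set_option exponentiation.threshold 300000

namespace Cfsg.Agent.H763.U33.Dat

open Cfsg.Agent.H763.U33 Cfsg.Agent.H123.Cls
open Cfsg.Agent.Lib.BitNetSimple (force force_eq)

/-- the six letters -/
def Sx {G : Type*} [Group G] (s : ℕ → G) (k : ℕ) : G := if k < 3 then s k else (s (k - 3))⁻¹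

theorem Sx_of_lt {G : Type*} [Group G] {s : ℕ → G} {k : ℕ} (hk : k < 3) : Sx s k = s k := if_pos hk

theorem Sx_add {G : Type*} [Group G] {s : ℕ → G} (k : ℕ) : Sx s (k + 3) = (s k)⁻¹ := by
  unfold Sx
  rw [if_neg (by omega), Nat.add_sub_cancel]

theorem inv_of {k i : ℕ} (hk : k < 3) (hi : i < 3510) : lk 12 (nth tabs k) i < 3510 ∧
    lk 12 (nth tabs (k + 3)) (lk 12 (nth tabs k) i) = i := by
  have h := (allN_iff _ _).1 ((allN_iff _ _).1 inv_chk k hk) i hi
  rw [force_eq] at h
  obtain ⟨h1, h2⟩ := band_true h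
  rw [Nat.blt_eq] at h1
  exact ⟨h1, Nat.eq_of_beq_eq_true h2⟩

theorem frame_of {G : Type*} [Group G] {t : Fin 3510 → G} (ht : Function.Injective t) {s : ℕ → G} {X : Subgroup G}
    (hfin : Finite X) (hX : Nat.card X ≤ 129123503308800) (hs : ∀ k < 3, s k ∈ X)
    (hact : ∀ k < 3, ∀ i : Fin 3510, ∃ j : Fin 3510, (j : ℕ) = lk 12 (nth tabs k) i ∧ (s k)⁻¹ * t i * s k = t j) :
    Frame 3510 12 tabs Ls (Sx s) t X where
  inj := ht
  mem k hk := by
    rw [len] at hk
    rcases lt_or_ge k 3 with h | h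
    · rw [Sx_of_lt h]
      exact hs k h
    · obtain ⟨j, rfl⟩ := Nat.exists_eq_add_of_le' h
      rw [Sx_add]
      exact X.inv_mem (hs j (by omega))
  fin := hfin
  card := by rw [prd_Ls]; exact hX
  act k hk i := by
    rw [len] at hk
    rcases lt_or_ge k 3 with h | h
    · rw [Sx_of_lt h]
      exact hact k h i
    · obtain ⟨j, rfl⟩ := Nat.exists_eq_add_of_le' h
      rw [Sx_add, inv_inv]
      have hj : j < 3 := by omega
      -- `π j` is surjective
      let f : Fin 3510 → Fin 3510 := fun q => ⟨lk 12 (nth tabs j) q, (inv_of hj q.2).1⟩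
      have hinj : Function.Injective f := by
        intro a b hab
        have h1 : lk 12 (nth tabs j) a = lk 12 (nth tabs j) b := congrArg Fin.val hab
        apply Fin.ext
        rw [← (inv_of hj a.2).2, h1, (inv_of hj b.2).2]
      obtain ⟨q, rfl⟩ := (Finite.injective_iff_surjective.1 hinj) i
      obtain ⟨r, hr, e⟩ := hact j hj q
      have hr' : r = f q := Fin.ext hr
      refine ⟨q, ?_, ?_⟩
      · exact (inv_of hj q.2).2.symm
      · rw [← hr', ← e]
        group
  chk := chk

end Cfsg.Agent.H763.U33.Dat
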