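import Cfsg.Agent.H123.Cls.Cover

/-!
# Base certificates for permutation groups given by tables; groups acting on a family of elements (helper763, S5525)

* `chkChain n w tabs bs Ls` : the levels `Ls` (base point, words fixing the earlier base points, spanning tree of the orbit)
  of a subgroup `H` of `Perm (Fin n)` containing the permutations of the tables `tabs`; `card_le` : `∏ m ≤ |H|`,
  `base_of_card` : if `|H| ≤ ∏ m`, an element of `H` fixing the base is trivial.
* `Frame` : `S k` (`k < tabs.length`) elements of `X ≤ G`, `t : Fin n → G` injective, `(S k)⁻¹ t_i (S k) = t_(π k i)`, `π k` the table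
  `k`; `|X| ≤ ∏ m`. Then `X` is generated by the `S k` (`Frame.closure_eq`), and two words with the same images on the base
  (`eqB`, the first letter acts first) are equal in `G` (`Frame.eq_of`).
-/

set_option autoImplicit false

namespace Cfsg.Agent.H763.U33

open Equiv Cfsg.Agent.H123.Cls Cfsg.Agent.Lib.BitNet
open Cfsg.Agent.Lib.BitNetSimple (force force_eq)

/-! ### tests -/

/-- all members -/
noncomputable def allL (l : List ℕ) (f : ℕ → Bool) : Bool := List.rec true (fun x _ ih => band (f x) ih) l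

theorem allL_iff {l : List ℕ} {f : ℕ → Bool} (h : allL l f = true) : ∀ x ∈ l, f x = true := by
  induction l with
  | nil => intro x hx; exact absurd hx List.not_mem_nil
  | cons y l ih =>
    obtain ⟨h1, h2⟩ := band_true (show band (f y) (allL l f) = true from h)
    intro x hx
    rcases List.mem_cons.1 hx with rfl | hx
    · exact h1
    · exact ih h2 x hx

/-- all members -/
noncomputable def allW (l : List (List ℕ)) (f : List ℕ → Bool) : Bool := List.rec true (fun x _ ih => band (f x) ih) l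

theorem allW_iff {l : List (List ℕ)} {f : List ℕ → Bool} (h : allW l f = true) : ∀ x ∈ l, f x = true := by
  induction l with
  | nil => intro x hx; exact absurd hx List.not_mem_nil
  | cons y l ih =>
    obtain ⟨h1, h2⟩ := band_true (show band (f y) (allW l f) = true from h)
    intro x hx
    rcases List.mem_cons.1 hx with rfl | hx
    · exact h1
    · exact ih h2 x hx

/-- the `i`-th word -/
noncomputable def nthW (l : List (List ℕ)) : ℕ → List ℕ :=
  List.rec (fun _ => []) (fun x _ ih i => Nat.rec x (fun j _ => ih j) i) l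

theorem nthW_mem : ∀ (l : List (List ℕ)) (i : ℕ), nthW l i ∈ l ∨ nthW l i = []
  | [], _ => Or.inr rfl
  | _ :: _, 0 => Or.inl List.mem_cons_self
  | _ :: l, i + 1 => (nthW_mem l i).imp (List.mem_cons_of_mem _) id

/-- image of a point under a word, the first letter acts first -/
noncomputable def evr (w : ℕ) (tabs : List ℕ) (l : List ℕ) : ℕ → ℕ :=
  List.rec (fun p => p) (fun x _ ih p => force (lk w (nth tabs x) p) ih) l

theorem evr_nil (w : ℕ) (tabs : List ℕ) (p : ℕ) : evr w tabs [] p = p := rfl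

theorem evr_cons (w : ℕ) (tabs : List ℕ) (x : ℕ) (l : List ℕ) (p : ℕ) :
    evr w tabs (x :: l) p = evr w tabs l (lk w (nth tabs x) p) := by
  show force (lk w (nth tabs x) p) (evr w tabs l) = _
  rw [force_eq]

/-- a level of the chain: base point, words, length of the orbit, table of the orbit, inverse table, parents, letters -/
structure Lev where
  b : ℕ
  ws : List (List ℕ)
  m : ℕ
  Q : ℕ
  R : ℕ
  PA : ℕ
  GE : ℕ

/-- the words fix the points -/
noncomputable def chkFix (w : ℕ) (tabs bs : List ℕ) (ws : List (List ℕ)) : Bool :=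
  allW ws fun l => band (chkL tabs.length l) (allL bs fun c => Nat.beq (evr w tabs l c) c)

/-- the spanning tree -/
noncomputable def chkTree (n w : ℕ) (tabs : List ℕ) (ws : List (List ℕ)) (m Q R PA GE : ℕ) : Bool :=
  allN (fun j => force (lk w Q j) fun q => band (Nat.blt q n) (band (Nat.beq (lk w R q) j)
    (Nat.rec true (fun _ _ => force (lk w PA j) fun i => band (Nat.blt i j)
      (Nat.beq (evr w tabs (nthW ws (lk w GE j)) (lk w Q i)) q)) j))) m

/-- one level -/
noncomputable def chkLev (n w : ℕ) (tabs bs : List ℕ) (L : Lev) : Bool :=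
  band (Nat.blt 0 L.m) (band (chkFix w tabs bs L.ws) (band (Nat.beq (lk w L.Q 0) L.b)
    (chkTree n w tabs L.ws L.m L.Q L.R L.PA L.GE)))

/-- the chain -/
noncomputable def chkChain (n w : ℕ) (tabs : List ℕ) : List ℕ → List Lev → Bool
  | _, [] => true
  | bs, L :: Ls => band (chkLev n w tabs bs L) (chkChain n w tabs (L.b :: bs) Ls)

/-- the base points -/
def pts : List ℕ → List Lev → List ℕ
  | bs, [] => bs
  | bs, L :: Ls => pts (L.b :: bs) Ls

/-- product of the orbit lengths -/
def prd : List Lev → ℕ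
  | [] => 1
  | L :: Ls => L.m * prd Ls

/-! ### soundness -/

section

variable {n w : ℕ} {tabs : List ℕ} {H : Subgroup (Perm (Fin n))}

/-- the subgroup fixing points -/
def fixS (H : Subgroup (Perm (Fin n))) (bs : List ℕ) : Subgroup (Perm (Fin n)) where
  carrier := {g | g ∈ H ∧ ∀ b : Fin n, (b : ℕ) ∈ bs → g b = b}
  mul_mem' := by
    rintro a b ⟨ha, ha'⟩ ⟨hb, hb'⟩
    exact ⟨H.mul_mem ha hb, fun p hp => by rw [Perm.mul_apply, hb' p hp, ha' p hp]⟩
  one_mem' := ⟨H.one_mem, fun _ _ => rfl⟩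
  inv_mem' := by
    rintro a ⟨ha, ha'⟩
    refine ⟨H.inv_mem ha, fun p hp => ?_⟩
    rw [Perm.inv_eq_iff_eq]
    exact (ha' p hp).symm

theorem mem_fixS {bs : List ℕ} {g : Perm (Fin n)} : g ∈ fixS H bs ↔ g ∈ H ∧ ∀ b : Fin n, (b : ℕ) ∈ bs → g b = b := Iff.rfl

/-- the inverses of the values of words -/
theorem exists_evr (ht : Tabs w H tabs) : ∀ l : List ℕ, (∀ x ∈ l, x < tabs.length) →
    ∃ g ∈ H, ∀ p : Fin n, (g p : ℕ) = evr w tabs l p
  | [], _ => ⟨1, H.one_mem, fun _ => rfl⟩
  | x :: l, hl => by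
    obtain ⟨g, hg, hgp⟩ := exists_evr ht l fun y hy => hl y (List.mem_cons_of_mem _ hy)
    obtain ⟨k, hk, hkp⟩ := ht x (hl x List.mem_cons_self)
    refine ⟨g * k, H.mul_mem hg hk, fun p => ?_⟩
    rw [Perm.mul_apply, hgp, hkp, evr_cons]

theorem fix_word (ht : Tabs w H tabs) {bs : List ℕ} {ws : List (List ℕ)} (h : chkFix w tabs bs ws = true) (i : ℕ) :
    ∃ g ∈ fixS H bs, ∀ p : Fin n, (g p : ℕ) = evr w tabs (nthW ws i) p := by
  rcases nthW_mem ws i with hm | hm
  · obtain ⟨h1, h2⟩ := band_true (allW_iff h _ hm)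
    obtain ⟨g, hg, hgp⟩ := exists_evr ht _ (chkL_iff _ _ h1)
    refine ⟨g, ⟨hg, fun b hb => Fin.ext ?_⟩, hgp⟩
    rw [hgp]
    exact Nat.eq_of_beq_eq_true (allL_iff h2 b hb)
  · rw [hm]
    exact ⟨1, Subgroup.one_mem _, fun _ => rfl⟩

theorem tree_sound (ht : Tabs w H tabs) {bs : List ℕ} {L : Lev} (h : chkLev n w tabs bs L = true) :
    0 < L.m ∧ (∀ j < L.m, lk w L.Q j < n ∧ lk w L.R (lk w L.Q j) = j) ∧ ∀ j < L.m, ∃ g ∈ fixS H bs,
      ∀ b : Fin n, (b : ℕ) = L.b → (g b : ℕ) = lk w L.Q j := by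
  obtain ⟨h0, h⟩ := band_true h
  obtain ⟨h1, h⟩ := band_true h
  obtain ⟨h2, h3⟩ := band_true h
  have h2' := Nat.eq_of_beq_eq_true h2
  rw [Nat.blt_eq] at h0
  have key : ∀ j < L.m, lk w L.Q j < n ∧ lk w L.R (lk w L.Q j) = j ∧ (j ≠ 0 → ∃ i < j,
      evr w tabs (nthW L.ws (lk w L.GE j)) (lk w L.Q i) = lk w L.Q j) := by
    intro j hj
    have h4 := (allN_iff _ _).1 h3 j hj
    rw [force_eq] at h4
    obtain ⟨h5, h4⟩ := band_true h4
    obtain ⟨h6, h7⟩ := band_true h4
    rw [Nat.blt_eq] at h5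
    refine ⟨h5, Nat.eq_of_beq_eq_true h6, fun hj0 => ?_⟩
    obtain ⟨k, rfl⟩ := Nat.exists_eq_succ_of_ne_zero hj0
    have h8 : force (lk w L.PA (k + 1)) (fun i => band (Nat.blt i (k + 1))
      (Nat.beq (evr w tabs (nthW L.ws (lk w L.GE (k + 1))) (lk w L.Q i)) (lk w L.Q (k + 1)))) = true := h7
    rw [force_eq] at h8
    obtain ⟨h9, h10⟩ := band_true h8
    rw [Nat.blt_eq] at h9
    exact ⟨_, h9, Nat.eq_of_beq_eq_true h10⟩
  refine ⟨h0, fun j hj => ⟨(key j hj).1, (key j hj).2.1⟩, fun j => ?_⟩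
  induction j using Nat.strong_induction_on with
  | _ j ih =>
    intro hj
    by_cases hj0 : j = 0
    · subst hj0
      exact ⟨1, Subgroup.one_mem _, fun b hb => by rw [Perm.one_apply, hb, h2']⟩
    · obtain ⟨i, hi, e⟩ := (key j hj).2.2 hj0
      obtain ⟨g, hg, hgb⟩ := ih i hi (by omega)
      obtain ⟨k, hk, hkp⟩ := fix_word ht h1 (lk w L.GE j)
      refine ⟨k * g, Subgroup.mul_mem _ hk hg, fun b hb => ?_⟩
      rw [Perm.mul_apply, hkp, hgb b hb, e]

theorem lev_sound (ht : Tabs w H tabs) {bs : List ℕ} {L : Lev} (h : chkLev n w tabs bs L = true) :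
    L.m * Nat.card (fixS H (L.b :: bs)) ≤ Nat.card (fixS H bs) := by
  obtain ⟨h0, h1, h2⟩ := tree_sound ht h
  have hbn : L.b < n := by
    obtain ⟨h3, h4⟩ := band_true h
    obtain ⟨h5, h6⟩ := band_true h4
    obtain ⟨h7, h8⟩ := band_true h6
    rw [← Nat.eq_of_beq_eq_true h7]
    exact (h1 0 h0).1
  set K := fixS H bs with hK
  let b : Fin n := ⟨L.b, hbn⟩
  have e1 := Subgroup.card_mul_index (MulAction.stabilizer K b)
  have e2 : (MulAction.stabilizer K b).index = (MulAction.orbit K b).ncard := MulAction.index_stabilizer K b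
  have e3 : Nat.card (MulAction.stabilizer K b) = Nat.card (fixS H (L.b :: bs)) := by
    refine Nat.card_congr
      { toFun := fun g => ⟨g.1.1, g.1.2.1, fun p hp => ?_⟩
        invFun := fun g => ⟨⟨g.1, g.2.1, fun p hp => g.2.2 p (List.mem_cons_of_mem _ hp)⟩, ?_⟩
        left_inv := fun _ => rfl
        right_inv := fun _ => rfl }
    · rcases List.mem_cons.1 hp with hp | hp
      · have : p = b := Fin.ext hp
        rw [this]
        exact g.2
      · exact g.1.2.2 p hp
    · exact g.2.2 b List.mem_cons_self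
  have e4 : L.m ≤ (MulAction.orbit K b).ncard := by
    choose! g hg hgb using h2
    have hinj : Function.Injective (fun j : Fin L.m => (⟨g j b, ⟨⟨g j, hg j j.2⟩, rfl⟩⟩ : MulAction.orbit K b)) := by
      intro i j hij
      have h3 : g i b = g j b := congrArg Subtype.val hij
      have h4 : lk w L.Q i = lk w L.Q j := by
        rw [← hgb i i.2 b rfl, ← hgb j j.2 b rfl, h3]
      apply Fin.ext
      rw [← (h1 i i.2).2, ← (h1 j j.2).2, h4]
    have h5 := Nat.card_le_card_of_injective _ hinj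
    rwa [Nat.card_eq_fintype_card, Fintype.card_fin, Nat.card_coe_set_eq] at h5
  rw [← e1, e2, e3, mul_comm]
  exact Nat.mul_le_mul_left _ e4

theorem chain_sound (ht : Tabs w H tabs) : ∀ (Ls : List Lev) (bs : List ℕ), chkChain n w tabs bs Ls = true →
    prd Ls * Nat.card (fixS H (pts bs Ls)) ≤ Nat.card (fixS H bs)
  | [], bs, _ => by rw [prd, pts, one_mul]
  | L :: Ls, bs, h => by
    obtain ⟨h1, h2⟩ := band_true (show band (chkLev n w tabs bs L) (chkChain n w tabs (L.b :: bs) Ls) = true from h)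
    have h3 := chain_sound ht Ls (L.b :: bs) h2
    have h4 := lev_sound ht h1
    rw [prd, pts, mul_assoc]
    exact (Nat.mul_le_mul_left _ h3).trans h4

theorem fixS_nil : fixS H [] = H := by
  ext g
  rw [mem_fixS]
  exact ⟨fun h => h.1, fun h => ⟨h, fun b hb => absurd hb List.not_mem_nil⟩⟩

/-- the order -/
theorem card_le (ht : Tabs w H tabs) {Ls : List Lev} (h : chkChain n w tabs [] Ls = true) : prd Ls ≤ Nat.card H := by
  have h1 := chain_sound ht Ls [] h
  rw [fixS_nil] at h1
  exact (Nat.le_mul_of_pos_right _ Nat.card_pos).trans h1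

/-- the base -/
theorem base_of_card (ht : Tabs w H tabs) {Ls : List Lev} (h : chkChain n w tabs [] Ls = true)
    (hc : Nat.card H ≤ prd Ls) {g : Perm (Fin n)} (hg : g ∈ H) (hgb : ∀ b : Fin n, (b : ℕ) ∈ pts [] Ls → g b = b) : g = 1 := by
  have h1 := chain_sound ht Ls [] h
  rw [fixS_nil] at h1
  have h0 : 0 < Nat.card H := Nat.card_pos
  have h2 : Nat.card (fixS H (pts [] Ls)) ≤ 1 := by
    by_contra h3
    have h4 : prd Ls * 2 ≤ Nat.card H := (Nat.mul_le_mul_left _ (by omega)).trans h1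
    omega
  have h3 : Nat.card (fixS H (pts [] Ls)) = 1 := le_antisymm h2 Nat.card_pos
  rw [Subgroup.card_eq_one] at h3
  have h4 : g ∈ fixS H (pts [] Ls) := ⟨hg, hgb⟩
  rw [h3] at h4
  exact Subgroup.mem_bot.1 h4

end

/-! ### groups acting on a family of elements -/

/-- the test of equality of two words: same images of the base points -/
noncomputable def eqB (w : ℕ) (tabs bs v u : List ℕ) : Bool :=
  band (chkL tabs.length v) (band (chkL tabs.length u) (allL bs fun b => Nat.beq (evr w tabs v b) (evr w tabs u b)))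

/-- the product of a word -/
def wp {G : Type*} [Group G] (S : ℕ → G) (l : List ℕ) : G := (l.map S).prod

theorem wp_nil {G : Type*} [Group G] (S : ℕ → G) : wp S [] = 1 := rfl

theorem wp_cons {G : Type*} [Group G] (S : ℕ → G) (k : ℕ) (l : List ℕ) : wp S (k :: l) = S k * wp S l := by
  unfold wp
  rw [List.map_cons, List.prod_cons]

theorem wp_append {G : Type*} [Group G] (S : ℕ → G) (l m : List ℕ) : wp S (l ++ m) = wp S l * wp S m := by
  unfold wp
  rw [List.map_append, List.prod_append]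

/-- `S k ∈ X`, `(S k)⁻¹ t_i (S k) = t_(π k i)`, `π k` the table `k` -/
structure Frame {G : Type*} [Group G] (n w : ℕ) (tabs : List ℕ) (Ls : List Lev) (S : ℕ → G) (t : Fin n → G)
    (X : Subgroup G) : Prop where
  inj : Function.Injective t
  mem : ∀ k < tabs.length, S k ∈ X
  fin : Finite X
  card : Nat.card X ≤ prd Ls
  act : ∀ k < tabs.length, ∀ i : Fin n, ∃ j : Fin n, (j : ℕ) = lk w (nth tabs k) i ∧ (S k)⁻¹ * t i * S k = t j
  chk : chkChain n w tabs [] Ls = true

namespace Frame

variable {G : Type*} [Group G] {n w : ℕ} {tabs : List ℕ} {Ls : List Lev} {S : ℕ → G} {t : Fin n → G} {X : Subgroup G}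

/-- the subgroup generated by the `S k` -/
def gen (S : ℕ → G) (m : ℕ) : Subgroup G := Subgroup.closure {x | ∃ k < m, x = S k}

theorem gen_le (h : Frame n w tabs Ls S t X) : gen S tabs.length ≤ X := by
  unfold gen
  rw [Subgroup.closure_le]
  rintro _ ⟨k, hk, rfl⟩
  exact h.mem k hk

/-- the normaliser of the family -/
theorem conj_mem (h : Frame n w tabs Ls S t X) {g : G} (hg : g ∈ gen S tabs.length) :
    (∀ i, ∃ j, g⁻¹ * t i * g = t j) ∧ ∀ i, ∃ j, g * t i * g⁻¹ = t j := by
  unfold gen at hg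
  have hfin : ∀ g : G, (∀ i, ∃ j, g⁻¹ * t i * g = t j) → ∀ i, ∃ j, g * t i * g⁻¹ = t j := by
    intro g hg
    choose f hf using hg
    have hinj : Function.Injective f := by
      intro i j hij
      apply h.inj
      have h1 : g⁻¹ * t i * g = g⁻¹ * t j * g := by rw [hf, hf, hij]
      exact mul_left_cancel (mul_right_cancel h1)
    intro i
    obtain ⟨j, rfl⟩ := (Finite.injective_iff_surjective.1 hinj) i
    exact ⟨j, by rw [← hf]; group⟩
  induction hg using Subgroup.closure_induction with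
  | mem x hx =>
    obtain ⟨k, hk, rfl⟩ := hx
    have h1 : ∀ i, ∃ j, (S k)⁻¹ * t i * S k = t j := fun i => by
      obtain ⟨j, -, h2⟩ := h.act k hk i
      exact ⟨j, h2⟩
    exact ⟨h1, hfin _ h1⟩
  | one => exact ⟨fun i => ⟨i, by group⟩, fun i => ⟨i, by group⟩⟩
  | mul x y _ _ hx hy =>
    refine ⟨fun i => ?_, fun i => ?_⟩
    · obtain ⟨j, hj⟩ := hx.1 i
      obtain ⟨k, hk⟩ := hy.1 j
      exact ⟨k, by rw [← hk, ← hj]; group⟩
    · obtain ⟨j, hj⟩ := hy.2 i
      obtain ⟨k, hk⟩ := hx.2 j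
      exact ⟨k, by rw [← hk, ← hj]; group⟩
  | inv x _ hx => exact ⟨fun i => by rw [inv_inv]; exact hx.2 i, fun i => by rw [inv_inv]; exact hx.1 i⟩

/-- the permutation of the indices -/
noncomputable def ix (h : Frame n w tabs Ls S t X) (g : gen S tabs.length) (i : Fin n) : Fin n :=
  Classical.choose ((h.conj_mem g.2).2 i)

theorem ix_spec (h : Frame n w tabs Ls S t X) (g : gen S tabs.length) (i : Fin n) : (g : G) * t i * (g : G)⁻¹ = t (h.ix g i) :=
  Classical.choose_spec ((h.conj_mem g.2).2 i)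

/-- the action on the indices -/
noncomputable def ρ (h : Frame n w tabs Ls S t X) : gen S tabs.length →* Perm (Fin n) where
  toFun g :=
    { toFun := h.ix g
      invFun := h.ix g⁻¹
      left_inv := fun i => h.inj (by
        rw [← h.ix_spec, ← h.ix_spec]
        show (g : G)⁻¹ * ((g : G) * t i * (g : G)⁻¹) * ((g : G)⁻¹)⁻¹ = t i
        group)
      right_inv := fun i => h.inj (by
        rw [← h.ix_spec, ← h.ix_spec]
        show (g : G) * ((g : G)⁻¹ * t i * ((g : G)⁻¹)⁻¹) * (g : G)⁻¹ = t i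
        group) }
  map_one' := Equiv.ext fun i => h.inj (by
    show t (h.ix 1 i) = t i
    rw [← h.ix_spec]
    show (1 : G) * t i * (1 : G)⁻¹ = t i
    group)
  map_mul' a b := Equiv.ext fun i => h.inj (by
    show t (h.ix (a * b) i) = t (h.ix a (h.ix b i))
    rw [← h.ix_spec, ← h.ix_spec, ← h.ix_spec]
    show ((a : G) * (b : G)) * t i * ((a : G) * (b : G))⁻¹ = _
    group)

theorem ρ_spec (h : Frame n w tabs Ls S t X) (g : gen S tabs.length) (i : Fin n) : (g : G) * t i * (g : G)⁻¹ = t (h.ρ g i) :=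
  h.ix_spec g i

/-- the generators -/
def sg (S : ℕ → G) {m k : ℕ} (hk : k < m) : gen S m := ⟨S k, Subgroup.subset_closure ⟨k, hk, rfl⟩⟩

theorem ρ_sg (h : Frame n w tabs Ls S t X) {k : ℕ} (hk : k < tabs.length) (i : Fin n) :
    (h.ρ (sg S hk)⁻¹ i : ℕ) = lk w (nth tabs k) i := by
  obtain ⟨j, hj, e⟩ := h.act k hk i
  rw [← hj]
  congr 1
  apply h.inj
  rw [← h.ρ_spec, ← e]
  show (S k)⁻¹ * t i * ((S k)⁻¹)⁻¹ = _
  rw [inv_inv]

theorem tabs_ok (h : Frame n w tabs Ls S t X) : Tabs w h.ρ.range tabs := fun k hk =>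
  ⟨h.ρ (sg S hk)⁻¹, ⟨_, rfl⟩, h.ρ_sg hk⟩

theorem finGen (h : Frame n w tabs Ls S t X) : Finite (gen S tabs.length) := by
  have := h.fin
  exact Finite.of_injective _ (Subgroup.inclusion_injective h.gen_le)

theorem card_gen (h : Frame n w tabs Ls S t X) : Nat.card (gen S tabs.length) = prd Ls ∧ Nat.card X = prd Ls ∧
    Nat.card h.ρ.range = prd Ls := by
  have h1 := card_le h.tabs_ok h.chk
  have := h.finGen
  have := h.fin
  have h2 : Nat.card h.ρ.range ≤ Nat.card (gen S tabs.length) := Nat.card_le_card_of_surjective _ h.ρ.rangeRestrict_surjective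
  have h3 : Nat.card (gen S tabs.length) ≤ Nat.card X :=
    Nat.card_le_card_of_injective _ (Subgroup.inclusion_injective h.gen_le)
  have h4 := h.card
  omega

/-- **`X` is generated by the `S k`** -/
theorem closure_eq (h : Frame n w tabs Ls S t X) : gen S tabs.length = X := by
  have := h.fin
  exact Subgroup.eq_of_le_of_card_ge h.gen_le (by rw [h.card_gen.1, h.card_gen.2.1])

theorem ρ_injective (h : Frame n w tabs Ls S t X) : Function.Injective h.ρ := by
  have := h.finGen
  have h1 : Function.Injective h.ρ.rangeRestrict :=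
    ((Nat.bijective_iff_surjective_and_card _).2 ⟨h.ρ.rangeRestrict_surjective, by
      rw [h.card_gen.1, h.card_gen.2.2]⟩).1
  intro a b hab
  exact h1 (Subtype.ext hab)

/-- the values of words -/
theorem wp_mem (S : ℕ → G) {m : ℕ} : ∀ {l : List ℕ}, (∀ x ∈ l, x < m) → wp S l ∈ gen S m
  | [], _ => Subgroup.one_mem _
  | k :: l, hl => by
    rw [wp_cons]
    exact Subgroup.mul_mem _ (sg S (hl k List.mem_cons_self)).2 (wp_mem S fun x hx => hl x (List.mem_cons_of_mem _ hx))

theorem ρ_wp (h : Frame n w tabs Ls S t X) : ∀ {l : List ℕ} (hl : ∀ x ∈ l, x < tabs.length) (i : Fin n),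
    (h.ρ (⟨wp S l, wp_mem S hl⟩ : gen S tabs.length)⁻¹ i : ℕ) = evr w tabs l i
  | [], hl, i => by
    have e : (⟨wp S [], wp_mem S hl⟩ : gen S tabs.length)⁻¹ = 1 := by
      rw [inv_eq_one]
      rfl
    rw [e, map_one]
    rfl
  | k :: l, hl, i => by
    have hl' : ∀ x ∈ l, x < tabs.length := fun x hx => hl x (List.mem_cons_of_mem _ hx)
    have hk := hl k List.mem_cons_self
    have e : (⟨wp S (k :: l), wp_mem S hl⟩ : gen S tabs.length)⁻¹ = (⟨wp S l, wp_mem S hl'⟩ : gen S tabs.length)⁻¹ * (sg S hk)⁻¹ := by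
      rw [← mul_inv_rev, inv_inj]
      exact Subtype.ext (wp_cons S k l)
    rw [e, map_mul, Perm.mul_apply, ρ_wp h hl', h.ρ_sg hk, evr_cons]

/-- **Words with the same images of the base points are equal.** -/
theorem eq_of (h : Frame n w tabs Ls S t X) {v u : List ℕ} (hvu : eqB w tabs (pts [] Ls) v u = true) : wp S v = wp S u := by
  obtain ⟨h1, h2⟩ := band_true hvu
  obtain ⟨h3, h4⟩ := band_true h2
  have hv := chkL_iff _ _ h1
  have hu := chkL_iff _ _ h3
  set a : gen S tabs.length := ⟨wp S v, wp_mem S hv⟩ with ha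
  set b : gen S tabs.length := ⟨wp S u, wp_mem S hu⟩ with hb
  have e : (h.ρ b⁻¹)⁻¹ * h.ρ a⁻¹ = 1 := by
    refine base_of_card h.tabs_ok h.chk h.card_gen.2.2.le ?_ fun p hp => ?_
    · exact Subgroup.mul_mem _ (Subgroup.inv_mem _ ⟨_, rfl⟩) ⟨_, rfl⟩
    · rw [Perm.mul_apply, Perm.inv_eq_iff_eq]
      apply Fin.ext
      rw [ha, hb, h.ρ_wp hv, h.ρ_wp hu]
      exact Nat.eq_of_beq_eq_true (allL_iff h4 p hp)
  rw [inv_mul_eq_one] at e
  have e2 := h.ρ_injective e
  have e3 : b = a := inv_injective e2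
  exact (congrArg Subtype.val e3).symm

/-- every element of `X` is a word -/
theorem exists_word (h : Frame n w tabs Ls S t X) {x : G} (hx : x ∈ X) : ∃ l : List ℕ, (∀ k ∈ l, k < tabs.length) ∧ x = wp S l := by
  have := h.finGen
  have h1 : (gen S tabs.length).toSubmonoid = Submonoid.closure {x | ∃ k < tabs.length, x = S k} := by
    unfold gen
    refine Subgroup.closure_toSubmonoid_of_isOfFinOrder fun x hx => ?_
    have h2 : x ∈ gen S tabs.length := Subgroup.subset_closure hx
    have h3 : IsOfFinOrder (⟨x, h2⟩ : gen S tabs.length) := isOfFinOrder_of_finite _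
    exact (Submonoid.isOfFinOrder_coe (H := (gen S tabs.length).toSubmonoid) (x := ⟨x, h2⟩)).2 h3
  have hx' : x ∈ Submonoid.closure {x | ∃ k < tabs.length, x = S k} := by
    rw [← h1, Subgroup.mem_toSubmonoid, h.closure_eq]
    exact hx
  clear hx h1
  induction hx' using Submonoid.closure_induction with
  | mem y hy =>
    obtain ⟨k, hk, rfl⟩ := hy
    exact ⟨[k], fun y hy => by rw [List.mem_singleton.1 hy]; exact hk, by rw [wp_cons, wp_nil, mul_one]⟩
  | one => exact ⟨[], fun y hy => absurd hy List.not_mem_nil, rfl⟩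
  | mul y z _ _ ihy ihz =>
    obtain ⟨l, hl, rfl⟩ := ihy
    obtain ⟨m, hm, rfl⟩ := ihz
    exact ⟨l ++ m, fun k hk => (List.mem_append.1 hk).elim (hl k) (hm k), by rw [wp_append]⟩

end Frame

end Cfsg.Agent.H763.U33
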