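import Cfsg.Agent.H763.U33.Chain

/-!
# Words coded by numbers (helper763, S5525)

`dec W n` : the word of `n` letters, 5 bits per letter, coded by `W` (letter `i` is `W / 32 ^ i % 32`); `cat v` : the
concatenation of coded words; `eqP w tabs bs v u` : the test of equality on the base points; `Frame.eqP_sound`.
Literals with many letters are elaborated at once, one lookup costs a few microseconds in the kernel.
-/

set_option autoImplicit false

namespace Cfsg.Agent.H763.U33

open Equiv Cfsg.Agent.H123.Cls Cfsg.Agent.Lib.BitNet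
open Cfsg.Agent.Lib.BitNetSimple (force force_eq)

/-- decoding -/
def dec (W n : ℕ) : List ℕ := (List.range n).map (lk 5 W)

/-- concatenation -/
def cat (v : List (ℕ × ℕ)) : List ℕ := v.flatMap fun a => dec a.1 a.2

theorem cat_nil : cat [] = [] := rfl

theorem cat_cons (a : ℕ × ℕ) (v : List (ℕ × ℕ)) : cat (a :: v) = dec a.1 a.2 ++ cat v := by
  unfold cat
  rw [List.flatMap_cons]

theorem cat_append (u v : List (ℕ × ℕ)) : cat (u ++ v) = cat u ++ cat v := by
  unfold cat
  rw [List.flatMap_append]

/-- image of a point under a coded word -/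
noncomputable def evc (w : ℕ) (tabs : List ℕ) (W n p : ℕ) : ℕ := Nat.rec p (fun i ih => lk w (nth tabs (lk 5 W i)) ih) n

theorem evr_append (w : ℕ) (tabs l m : List ℕ) (p : ℕ) : evr w tabs (l ++ m) p = evr w tabs m (evr w tabs l p) := by
  induction l generalizing p with
  | nil => rfl
  | cons x l ih => rw [List.cons_append, evr_cons, ih, evr_cons]

theorem evc_eq (w : ℕ) (tabs : List ℕ) (W n p : ℕ) : evc w tabs W n p = evr w tabs (dec W n) p := by
  induction n with
  | zero => rfl
  | succ n ih =>
    unfold dec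
    rw [List.range_succ, List.map_append, evr_append]
    show lk w (nth tabs (lk 5 W n)) (evc w tabs W n p) = _
    rw [ih, List.map_cons, List.map_nil, evr_cons, evr_nil]
    rfl

/-- image of a point under a list of coded words -/
noncomputable def evp (w : ℕ) (tabs : List ℕ) (v : List (ℕ × ℕ)) : ℕ → ℕ :=
  List.rec (fun p => p) (fun a _ ih p => force (evc w tabs a.1 a.2 p) ih) v

theorem evp_eq (w : ℕ) (tabs : List ℕ) (v : List (ℕ × ℕ)) (p : ℕ) : evp w tabs v p = evr w tabs (cat v) p := by
  induction v generalizing p with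
  | nil => rfl
  | cons a v ih =>
    rw [cat_cons, evr_append, ← evc_eq, ← ih]
    exact force_eq _ _

/-- the letters are valid -/
noncomputable def chkc (m W n : ℕ) : Bool := allN (fun i => Nat.blt (lk 5 W i) m) n

/-- the letters are valid -/
noncomputable def chkP (m : ℕ) (v : List (ℕ × ℕ)) : Bool := List.rec true (fun a _ ih => band (chkc m a.1 a.2) ih) v

theorem chkP_iff {m : ℕ} {v : List (ℕ × ℕ)} (h : chkP m v = true) : ∀ x ∈ cat v, x < m := by
  induction v with
  | nil => intro x hx; exact absurd hx List.not_mem_nil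
  | cons a v ih =>
    obtain ⟨h1, h2⟩ := band_true (show band (chkc m a.1 a.2) (chkP m v) = true from h)
    intro x hx
    rw [cat_cons] at hx
    rcases List.mem_append.1 hx with hx | hx
    · unfold dec at hx
      obtain ⟨i, hi, rfl⟩ := List.mem_map.1 hx
      have h3 := (allN_iff _ _).1 h1 i (List.mem_range.1 hi)
      rwa [Nat.blt_eq] at h3
    · exact ih h2 x hx

/-- the test of equality of two lists of coded words on the base points -/
noncomputable def eqP (w : ℕ) (tabs bs : List ℕ) (v u : List (ℕ × ℕ)) : Bool :=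
  band (chkP tabs.length v) (band (chkP tabs.length u) (allL bs fun b => Nat.beq (evp w tabs v b) (evp w tabs u b)))

namespace Frame

variable {G : Type*} [Group G] {n w : ℕ} {tabs : List ℕ} {Ls : List Lev} {S : ℕ → G} {t : Fin n → G} {X : Subgroup G}

/-- the value of a list of coded words -/
def vp (S : ℕ → G) (v : List (ℕ × ℕ)) : G := wp S (cat v)

theorem vp_nil (S : ℕ → G) : vp S [] = 1 := rfl

theorem vp_cons (S : ℕ → G) (a : ℕ × ℕ) (v : List (ℕ × ℕ)) : vp S (a :: v) = wp S (dec a.1 a.2) * vp S v := by
  unfold vp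
  rw [cat_cons, wp_append]

theorem vp_append (S : ℕ → G) (u v : List (ℕ × ℕ)) : vp S (u ++ v) = vp S u * vp S v := by
  unfold vp
  rw [cat_append, wp_append]

theorem vp_mem (h : Frame n w tabs Ls S t X) {v : List (ℕ × ℕ)} (hv : chkP tabs.length v = true) : vp S v ∈ X := by
  rw [← h.closure_eq]
  exact wp_mem S (chkP_iff hv)

/-- **Coded words with the same images of the base points are equal.** -/
theorem eqP_sound (h : Frame n w tabs Ls S t X) {v u : List (ℕ × ℕ)} (hvu : eqP w tabs (pts [] Ls) v u = true) :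
    vp S v = vp S u := by
  obtain ⟨h1, h2⟩ := band_true hvu
  obtain ⟨h3, h4⟩ := band_true h2
  have hv := chkP_iff h1
  have hu := chkP_iff h3
  unfold vp
  set a : gen S tabs.length := ⟨wp S (cat v), wp_mem S hv⟩ with ha
  set b : gen S tabs.length := ⟨wp S (cat u), wp_mem S hu⟩ with hb
  have e : (h.ρ b⁻¹)⁻¹ * h.ρ a⁻¹ = 1 := by
    refine base_of_card h.tabs_ok h.chk h.card_gen.2.2.le ?_ fun p hp => ?_
    · exact Subgroup.mul_mem _ (Subgroup.inv_mem _ ⟨_, rfl⟩) ⟨_, rfl⟩
    · rw [Perm.mul_apply, Perm.inv_eq_iff_eq]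
      apply Fin.ext
      rw [ha, hb, h.ρ_wp hv, h.ρ_wp hu, ← evp_eq, ← evp_eq]
      exact Nat.eq_of_beq_eq_true (allL_iff h4 p hp)
  rw [inv_mul_eq_one] at e
  have e3 : b = a := inv_injective (h.ρ_injective e)
  exact (congrArg Subtype.val e3).symm

end Frame

end Cfsg.Agent.H763.U33
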